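import Cfsg.Agent.H883.BR.Fam
import Cfsg.Agent.H666.TraceZero

/-!
# BR-F-OmE-ext: root elements in the centre of `U`, orthogonal groups in characteristic 2 (helper580)

`V` a vector space over the perfect field `K` of characteristic 2 with a quadratic form `Q`, whose polar form `B` is
nondegenerate; `U` a finite 2-group of isometries such that the fixed points of `U` on `Λ²₀ V / scalars` are a line:
then some `1 ≠ z ∈ Z(U)` is `1 + v₀ ∧ v₁` with `⟨v₀, v₁⟩` totally singular.
-/

set_option autoImplicit false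
set_option linter.unusedSectionVars false

namespace Cfsg.Agent.H580.BR

open Module Cfsg.Agent.H883.BR

universe u v w

section basic

variable {K : Type*} [Field K] {V : Type*} [AddCommGroup V] [Module K V]

/-- a quadratic form in characteristic 2 with its nondegenerate polar form -/
structure QB (Q : V → K) (B : LinearMap.BilinForm K V) : Prop where
  symm : ∀ x y, B x y = B y x
  alt : ∀ x, B x x = 0
  add : ∀ x y, Q (x + y) = Q x + Q y + B x y
  smul : ∀ (c : K) x, Q (c • x) = c * c * Q x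
  nd : ∀ x, (∀ y, B x y = 0) → x = 0

theorem QB.of_form [CharP K 2] (Q : QuadraticForm K V) (h : ∀ v, (∀ w, QuadraticMap.polar Q v w = 0) → v = 0) :
    QB (fun v => Q v) Q.polarBilin where
  symm x y := by
    rw [QuadraticMap.polarBilin_apply_apply, QuadraticMap.polarBilin_apply_apply, QuadraticMap.polar_comm]
  alt x := by
    rw [QuadraticMap.polarBilin_apply_apply, QuadraticMap.polar_self, two_nsmul, CharTwo.add_self_eq_zero]
  add x y := by
    rw [QuadraticMap.polarBilin_apply_apply, QuadraticMap.polar]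
    ring
  smul c x := by
    rw [QuadraticMap.map_smul, smul_eq_mul]
  nd x hx := h x fun w => by
    rw [← QuadraticMap.polarBilin_apply_apply]
    exact hx w

/-- `u ∧ v` as an endomorphism (characteristic 2) -/
def wd (B : LinearMap.BilinForm K V) (u v : V) : Module.End K V := (B v).smulRight u + (B u).smulRight v

theorem wd_apply (B : LinearMap.BilinForm K V) (u v x : V) : wd B u v x = B v x • u + B u x • v := rfl

variable {Q : V → K} {B : LinearMap.BilinForm K V}

theorem wd_add_right (u v w : V) : wd B u (v + w) = wd B u v + wd B u w := by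
  refine LinearMap.ext fun x => ?_
  rw [LinearMap.add_apply, wd_apply, wd_apply, wd_apply, map_add, LinearMap.add_apply, add_smul, smul_add]
  abel

theorem wd_add_left (u v w : V) : wd B (u + v) w = wd B u w + wd B v w := by
  refine LinearMap.ext fun x => ?_
  rw [LinearMap.add_apply, wd_apply, wd_apply, wd_apply, map_add, LinearMap.add_apply, add_smul, smul_add]
  abel

theorem wd_smul_right (c : K) (u v : V) : wd B u (c • v) = c • wd B u v := by
  refine LinearMap.ext fun x => ?_
  rw [LinearMap.smul_apply, wd_apply, wd_apply, map_smul, LinearMap.smul_apply, smul_eq_mul, smul_add, smul_smul,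
    smul_smul, smul_smul, mul_comm (B u x) c]

theorem wd_smul_left (c : K) (u v : V) : wd B (c • u) v = c • wd B u v := by
  refine LinearMap.ext fun x => ?_
  rw [LinearMap.smul_apply, wd_apply, wd_apply, map_smul, LinearMap.smul_apply, smul_eq_mul, smul_add, smul_smul,
    smul_smul, smul_smul, mul_comm (B v x) c]

theorem wd_self [CharP K 2] (u : V) : wd B u u = 0 := by
  refine LinearMap.ext fun x => ?_
  rw [wd_apply, LinearMap.zero_apply, ← add_smul, CharTwo.add_self_eq_zero, zero_smul]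

/-- `(u ∧ v)² = 0` for orthogonal `u`, `v` -/
theorem wd_sq (h : QB Q B) {u v : V} (huv : B u v = 0) : wd B u v * wd B u v = 0 := by
  refine LinearMap.ext fun x => ?_
  rw [Module.End.mul_apply, wd_apply, wd_apply, LinearMap.zero_apply]
  simp only [map_add, map_smul, smul_eq_mul, h.alt, huv, h.symm v u, mul_zero, add_zero, zero_smul]

/-- conjugation by an isometry -/
theorem wd_conj {g g' : Module.End K V} (hg : ∀ x y, B (g x) (g y) = B x y) (hgg : ∀ x, g (g' x) = x) (u v : V) :
    g * wd B u v * g' = wd B (g u) (g v) := by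
  refine LinearMap.ext fun x => ?_
  have h1 : ∀ y, B y (g' x) = B (g y) x := fun y => by
    conv_rhs => rw [← hgg x]
    rw [hg]
  rw [Module.End.mul_apply, Module.End.mul_apply, wd_apply, wd_apply, map_add, map_smul, map_smul, h1, h1]

theorem exists_one (h : QB Q B) {v : V} (hv : v ≠ 0) : ∃ w, B v w = 1 := by
  by_contra hc
  refine hv (h.nd v fun w => ?_)
  by_contra hw
  refine hc ⟨(B v w)⁻¹ • w, ?_⟩
  rw [map_smul, smul_eq_mul, inv_mul_cancel₀ hw]

/-- `v ∧ y = 0` only for `y ∈ K v` -/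
theorem eq_smul_of_wd (h : QB Q B) {v y : V} (hv : v ≠ 0) (h0 : wd B v y = 0) : ∃ c : K, y = c • v := by
  obtain ⟨w, hw⟩ := exists_one h hv
  have h1 := LinearMap.congr_fun h0 w
  rw [wd_apply, hw, one_smul, LinearMap.zero_apply] at h1
  refine ⟨- B y w, ?_⟩
  rw [neg_smul]
  exact (neg_eq_of_add_eq_zero_right h1).symm

end basic

/-! ### fixed vectors of `p`-groups in subquotients -/

section fix

variable {K : Type*} [Field K] {V : Type*} [AddCommGroup V] [Module K V] {p : ℕ} [Fact p.Prime] [CharP K p]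
  {P : Type*} [Group P] [Finite P]

theorem exists_fix_mod (hP : IsPGroup p P) (ρ : P →* Module.End K V) (A A' : Submodule K V)
    (hA : ∀ g, ∀ v ∈ A, ρ g v ∈ A) (hA' : ∀ g, ∀ v ∈ A', ρ g v ∈ A') (hne : ∃ y ∈ A', y ∉ A) :
    ∃ y ∈ A', y ∉ A ∧ ∀ g, ρ g y - y ∈ A := by
  let ρ' : Representation K P (V ⧸ A) :=
    { toFun := fun g => A.mapQ A (ρ g) (hA g)
      map_one' := by
        refine LinearMap.ext fun x => ?_
        obtain ⟨x, rfl⟩ := A.mkQ_surjective x
        rw [Submodule.mkQ_apply, Submodule.mapQ_apply, map_one]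
        rfl
      map_mul' := fun g h => by
        refine LinearMap.ext fun x => ?_
        obtain ⟨x, rfl⟩ := A.mkQ_surjective x
        rw [Module.End.mul_apply, Submodule.mkQ_apply, Submodule.mapQ_apply, Submodule.mapQ_apply,
          Submodule.mapQ_apply, map_mul]
        rfl }
  have hρ' : ∀ g x, ρ' g (A.mkQ x) = A.mkQ (ρ g x) := fun g x => rfl
  obtain ⟨u, hu, hu0, hfix⟩ := Cfsg.Agent.H666.exists_fixed_ne_zero hP ρ' (A'.map A.mkQ)
    (by
      rintro g _ ⟨x, hx, rfl⟩
      rw [hρ']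
      exact ⟨_, hA' g x hx, rfl⟩)
    (by
      obtain ⟨y, hy, hyA⟩ := hne
      rw [Submodule.ne_bot_iff]
      refine ⟨A.mkQ y, ⟨y, hy, rfl⟩, fun h0 => hyA ?_⟩
      rwa [Submodule.mkQ_apply, Submodule.Quotient.mk_eq_zero] at h0)
  obtain ⟨y, hy, rfl⟩ := hu
  refine ⟨y, hy, fun h => hu0 ?_, fun g => ?_⟩
  · rw [Submodule.mkQ_apply, Submodule.Quotient.mk_eq_zero]
    exact h
  · have h := hfix g
    rw [hρ'] at h
    exact (Submodule.Quotient.eq A).1 h

end fix

/-! ### singular vectors in subquotients -/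

section sing

variable {K : Type*} [Field K] [CharP K 2] [PerfectRing K 2] {V : Type*} [AddCommGroup V] [Module K V]
  {Q : V → K} {B : LinearMap.BilinForm K V}

theorem exists_sqrt (a : K) : ∃ b : K, b * b = a := by
  obtain ⟨b, hb⟩ := (frobeniusEquiv K 2).surjective a
  refine ⟨b, ?_⟩
  rw [← hb, frobeniusEquiv_apply, frobenius_def, pow_two]

theorem QB.zero (h : QB Q B) : Q 0 = 0 := by
  have h1 := h.smul 0 0
  rwa [smul_zero, zero_mul, zero_mul] at h1

/-- the orthogonal complement -/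
def orth (B : LinearMap.BilinForm K V) (T : Submodule K V) : Submodule K V where
  carrier := {x | ∀ t ∈ T, B t x = 0}
  zero_mem' := fun t _ => by rw [map_zero]
  add_mem' := fun {x y} hx hy t ht => by rw [map_add, hx t ht, hy t ht, add_zero]
  smul_mem' := fun c x hx t ht => by rw [map_smul, hx t ht, smul_zero]

omit [CharP K 2] [PerfectRing K 2] in
theorem mem_orth {T : Submodule K V} {x : V} : x ∈ orth B T ↔ ∀ t ∈ T, B t x = 0 := Iff.rfl

omit [CharP K 2] [PerfectRing K 2] in
theorem finrank_orth [FiniteDimensional K V] (h : QB Q B) (T : Submodule K V) :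
    finrank K (orth B T) = finrank K V - finrank K T := by
  have hn : B.Nondegenerate := ⟨fun x hx => h.nd x hx, fun x hx => h.nd x fun y => by rw [h.symm]; exact hx y⟩
  have h1 := LinearMap.BilinForm.finrank_orthogonal hn T
  rw [← h1]
  have h2 : orth B T = B.orthogonal T := by
    ext x
    rw [mem_orth, LinearMap.BilinForm.mem_orthogonal_iff]
  rw [h2]

/-- **a singular fixed vector in `T^⊥ / T`**, `T` totally singular -/
theorem exists_sing [FiniteDimensional K V] (h : QB Q B) {U : Type*} [Group U] [Finite U] (hU : IsPGroup 2 U)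
    (ρ : U →* Module.End K V) (hQ : ∀ g x, Q (ρ g x) = Q x) (hB : ∀ g x y, B (ρ g x) (ρ g y) = B x y)
    (T : Submodule K V) (hT : ∀ g, ∀ t ∈ T, ρ g t ∈ T) (hTs : ∀ t ∈ T, Q t = 0)
    (hdim : 2 * finrank K T + 3 ≤ finrank K V) :
    ∃ v, (∀ t ∈ T, B t v = 0) ∧ v ∉ T ∧ Q v = 0 ∧ ∀ g, ρ g v - v ∈ T := by
  have : Fact (Nat.Prime 2) := ⟨Nat.prime_two⟩
  have hgg : ∀ g x, ρ g (ρ g⁻¹ x) = x := fun g x => by
    rw [← Module.End.mul_apply, ← map_mul, mul_inv_cancel, map_one, Module.End.one_apply]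
  have hTB : ∀ s ∈ T, ∀ t ∈ T, B s t = 0 := fun s hs t ht => by
    have h1 := h.add s t
    rw [hTs s hs, hTs t ht, hTs (s + t) (T.add_mem hs ht), zero_add, zero_add] at h1
    exact h1.symm
  have hinv : ∀ S : Submodule K V, (∀ g, ∀ t ∈ S, ρ g t ∈ S) → ∀ g, ∀ x ∈ orth B S, ρ g x ∈ orth B S := by
    intro S hS g x hx t ht
    rw [← hgg g t, hB]
    exact hx _ (hS g⁻¹ t ht)
  -- a vector of `S^⊥` outside `S`
  have hex : ∀ S : Submodule K V, 2 * finrank K S + 1 ≤ finrank K V → ∃ y ∈ orth B S, y ∉ S := by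
    intro S hS
    by_contra hc
    push Not at hc
    have h1 := Submodule.finrank_mono (show orth B S ≤ S from hc)
    rw [finrank_orth h] at h1
    omega
  obtain ⟨y, hy, hyT, hfy⟩ := exists_fix_mod hU ρ T (orth B T) hT (hinv T hT) (hex T (by omega))
  by_cases hQy : Q y = 0
  · exact ⟨y, hy, hyT, hQy, hfy⟩
  -- `T' = T + K y`
  have hT' : ∀ g, ∀ t ∈ T ⊔ K ∙ y, ρ g t ∈ T ⊔ K ∙ y := by
    intro g t ht
    obtain ⟨s, hs, r, hr, rfl⟩ := Submodule.mem_sup.1 ht
    obtain ⟨c, rfl⟩ := Submodule.mem_span_singleton.1 hr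
    rw [map_add, map_smul]
    refine add_mem (Submodule.mem_sup_left (hT g s hs)) (Submodule.smul_mem _ _ ?_)
    have h1 : ρ g y = (ρ g y - y) + y := by abel
    rw [h1]
    exact add_mem (Submodule.mem_sup_left (hfy g)) (Submodule.mem_sup_right (Submodule.mem_span_singleton_self y))
  have hd : finrank K ↥(T ⊔ K ∙ y) ≤ finrank K T + 1 := by
    refine (Submodule.finrank_add_le_finrank_add_finrank T (K ∙ y)).trans ?_
    have h1 := finrank_span_le_card (R := K) ({y} : Set V)
    rw [Set.toFinset_singleton, Finset.card_singleton] at h1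
    omega
  obtain ⟨x, hx, hxT, hfx⟩ := exists_fix_mod hU ρ (T ⊔ K ∙ y) (orth B (T ⊔ K ∙ y)) hT' (hinv _ hT')
    (hex _ (by omega))
  have hxy : B x y = 0 := by
    rw [h.symm]
    exact hx y (Submodule.mem_sup_right (Submodule.mem_span_singleton_self y))
  obtain ⟨c, hc⟩ := exists_sqrt (Q x / Q y)
  have hcy : c * c * Q y = Q x := by rw [hc, div_mul_cancel₀ _ hQy]
  have hv0 : Q (x + c • y) = 0 := by
    rw [h.add, h.smul, hcy, map_smul, hxy, smul_zero, add_zero, CharTwo.add_self_eq_zero]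
  have hvo : ∀ t ∈ T, B t (x + c • y) = 0 := fun t ht => by
    rw [map_add, map_smul, hx t (Submodule.mem_sup_left ht), hy t ht, smul_zero, add_zero]
  have hvy : B (x + c • y) y = 0 := by
    rw [map_add, LinearMap.add_apply, map_smul, LinearMap.smul_apply, hxy, h.alt, smul_zero, add_zero]
  refine ⟨x + c • y, hvo, fun hv => hxT ?_, hv0, fun g => ?_⟩
  · have h1 : x = (x + c • y) - c • y := by abel
    rw [h1]
    exact sub_mem (Submodule.mem_sup_left hv) (Submodule.mem_sup_right
      (Submodule.smul_mem _ _ (Submodule.mem_span_singleton_self y)))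
  · have h1 : ρ g (x + c • y) - (x + c • y) ∈ T ⊔ K ∙ y := by
      have h2 : ρ g (x + c • y) - (x + c • y) = (ρ g x - x) + c • (ρ g y - y) := by
        rw [map_add, map_smul, smul_sub]
        abel
      rw [h2]
      exact add_mem (hfx g) (Submodule.smul_mem _ _ (Submodule.mem_sup_left (hfy g)))
    obtain ⟨t, ht, r, hr, htr⟩ := Submodule.mem_sup.1 h1
    obtain ⟨d, rfl⟩ := Submodule.mem_span_singleton.1 hr
    have h3 : ρ g (x + c • y) = (x + c • y) + (t + d • y) := by
      rw [htr]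
      abel
    have h4 := hQ g (x + c • y)
    rw [h3, h.add, hv0, zero_add, h.add, hTs t ht, zero_add, h.smul, map_smul, map_add, map_smul,
      show B t y = 0 from hy t ht, h.symm (x + c • y) t, hvo t ht, hvy, smul_zero, add_zero, add_zero,
      add_zero] at h4
    have h5 : d = 0 := by
      rcases mul_eq_zero.1 h4 with h6 | h6
      · exact mul_self_eq_zero.1 h6
      · exact absurd h6 hQy
    rw [h5, zero_smul, add_zero] at htr
    rw [← htr]
    exact ht

/-- the square of a vector -/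
def sq (B : LinearMap.BilinForm K V) (u : V) : Module.End K V := (B u).smulRight u

theorem sq_apply (B : LinearMap.BilinForm K V) (u x : V) : sq B u x = B u x • u := rfl

/-- a self-adjoint `X` is `x₀² +` alternating -/
theorem exists_vec [FiniteDimensional K V] (h : QB Q B) {X : Module.End K V} (hX : ∀ x y, B (X x) y = B x (X y)) :
    ∃ x₀ : V, ∀ v, B (X v) v = B x₀ v * B x₀ v := by
  have hadd : ∀ a b : K, (frobeniusEquiv K 2).symm (a + b) = (frobeniusEquiv K 2).symm a + (frobeniusEquiv K 2).symm b :=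
    fun a b => map_add _ a b
  let φ : V →ₗ[K] K :=
    { toFun := fun v => (frobeniusEquiv K 2).symm (B (X v) v)
      map_add' := fun v w => by
        rw [← hadd]
        have h3 : B (X (v + w)) (v + w) = B (X v) v + B (X w) w := by
          simp only [map_add, LinearMap.add_apply]
          rw [hX w v, h.symm w (X v)]
          have h2 := CharTwo.add_self_eq_zero (B (X v) w)
          linear_combination h2
        rw [h3]
      map_smul' := fun c v => by
        have h3 : B (X (c • v)) (c • v) = c ^ 2 * B (X v) v := by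
          simp only [map_smul, LinearMap.smul_apply, smul_eq_mul]
          ring
        have h4 : (frobeniusEquiv K 2).symm (c ^ 2) = c := by
          rw [← frobenius_def, ← frobeniusEquiv_apply, RingEquiv.symm_apply_apply]
        rw [h3, map_mul, h4, RingHom.id_apply, smul_eq_mul] }
  have hn : B.Nondegenerate := ⟨fun x hx => h.nd x hx, fun x hx => h.nd x fun y => by rw [h.symm]; exact hx y⟩
  refine ⟨(LinearMap.BilinForm.toDual B hn).symm φ, fun v => ?_⟩
  have h1 : B ((LinearMap.BilinForm.toDual B hn).symm φ) v = φ v := by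
    rw [LinearMap.BilinForm.apply_toDual_symm_apply]
  rw [h1]
  have h3 : frobeniusEquiv K 2 (φ v) = B (X v) v := RingEquiv.apply_symm_apply _ _
  rw [← h3, frobeniusEquiv_apply, frobenius_def, pow_two]

/-- **alternating operators of square 0** are sums of `e ∧ f`, `e ⊥ f` -/
theorem mem_of_sq [FiniteDimensional K V] (h : QB Q B) (L : Submodule K (Module.End K V))
    (hL : ∀ e f : V, B e f = 0 → wd B e f ∈ L) (n : ℕ) : ∀ Y : Module.End K V, (∀ x y, B (Y x) y = B x (Y y)) →
    (∀ x, B (Y x) x = 0) → Y * Y = 0 → finrank K (LinearMap.range Y) ≤ n → Y ∈ L := by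
  induction n with
  | zero =>
    intro Y _ _ _ hr
    have h1 : LinearMap.range Y = ⊥ := Submodule.finrank_eq_zero.1 (Nat.le_zero.1 hr)
    rw [LinearMap.range_eq_bot.1 h1]
    exact L.zero_mem
  | succ n ih =>
    intro Y hs ha hq hr
    by_cases hY : Y = 0
    · rw [hY]
      exact L.zero_mem
    obtain ⟨v, hv⟩ : ∃ v, Y v ≠ 0 := by
      by_contra hc
      push Not at hc
      exact hY (LinearMap.ext hc)
    obtain ⟨w, hw⟩ := exists_one h hv
    have hYY : ∀ x, Y (Y x) = 0 := fun x => by rw [← Module.End.mul_apply, hq, LinearMap.zero_apply]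
    have hef : B (Y v) (Y w) = 0 := by rw [hs, hYY, map_zero]
    -- `Y' = Y - e ∧ f`
    have hY' : ∀ x, (Y - wd B (Y v) (Y w)) x = Y x - (B (Y w) x • Y v + B (Y v) x • Y w) := fun x => rfl
    have h1 : ∀ x y, B ((Y - wd B (Y v) (Y w)) x) y = B x ((Y - wd B (Y v) (Y w)) y) := by
      intro x y
      rw [hY', hY']
      simp only [map_sub, map_add, map_smul, LinearMap.sub_apply, LinearMap.add_apply, LinearMap.smul_apply,
        smul_eq_mul]
      rw [hs x y, h.symm x (Y v), h.symm x (Y w)]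
      ring
    have h2 : ∀ x, B ((Y - wd B (Y v) (Y w)) x) x = 0 := by
      intro x
      rw [hY']
      simp only [map_sub, map_add, map_smul, LinearMap.sub_apply, LinearMap.add_apply, LinearMap.smul_apply,
        smul_eq_mul]
      rw [ha x]
      have h5 := CharTwo.add_self_eq_zero (B (Y w) x * B (Y v) x)
      linear_combination -h5
    have h3 : (Y - wd B (Y v) (Y w)) * (Y - wd B (Y v) (Y w)) = 0 := by
      have e1 : Y * wd B (Y v) (Y w) = 0 := LinearMap.ext fun x => by
        rw [Module.End.mul_apply, wd_apply, map_add, map_smul, map_smul, hYY, hYY, smul_zero, smul_zero, add_zero,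
          LinearMap.zero_apply]
      have e2 : wd B (Y v) (Y w) * Y = 0 := LinearMap.ext fun x => by
        rw [Module.End.mul_apply, wd_apply, hs, hs v, hYY, map_zero, map_zero, zero_smul, zero_smul, add_zero,
          LinearMap.zero_apply]
      rw [sub_mul, mul_sub, mul_sub, hq, e1, e2, wd_sq h hef, sub_zero, sub_zero]
    have h4 : finrank K (LinearMap.range (Y - wd B (Y v) (Y w))) ≤ n := by
      have h5 := LinearMap.finrank_range_add_finrank_ker Y
      have h6 := LinearMap.finrank_range_add_finrank_ker (Y - wd B (Y v) (Y w))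
      have h7 : LinearMap.ker Y < LinearMap.ker (Y - wd B (Y v) (Y w)) := by
        rw [SetLike.lt_iff_le_and_exists]
        refine ⟨fun x hx => ?_, v, ?_, hv⟩
        · rw [LinearMap.mem_ker] at hx ⊢
          rw [hY', hx, hs, hs v, hx, map_zero, map_zero, zero_smul, zero_smul, add_zero, sub_zero]
        · rw [LinearMap.mem_ker, hY', hs, h.symm w, hw, ha, zero_smul, one_smul, add_zero, sub_self]
      have h8 := Submodule.finrank_lt_finrank_of_lt h7
      omega
    have h9 := L.add_mem (ih _ h1 h2 h3 h4) (hL _ _ hef)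
    rwa [sub_add_cancel] at h9

theorem eq_zero_of_nil [Nontrivial V] {a : Module.End K V} (ha : a * a = 0) {c s : K}
    (h : (c • a + s • (1 : Module.End K V)) * (c • a + s • (1 : Module.End K V)) = 0) : s = 0 := by
  have h1 : (c • a + s • (1 : Module.End K V)) * (c • a + s • (1 : Module.End K V)) = (s * s) • 1 := by
    have h2 : (c • a + s • (1 : Module.End K V)) * (c • a + s • (1 : Module.End K V)) =
        (c * c) • (a * a) + (c * s + c * s) • a + (s * s) • 1 := by
      rw [add_mul, mul_add, mul_add, smul_mul_smul_comm, smul_mul_smul_comm, smul_mul_smul_comm, smul_mul_smul_comm,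
        mul_one, one_mul, mul_one, mul_comm s c, add_smul]
      abel
    rw [h2, ha, CharTwo.add_self_eq_zero, smul_zero, zero_smul, zero_add, zero_add]
  rw [h1] at h
  rcases smul_eq_zero.1 h with h2 | h2
  · exact mul_self_eq_zero.1 h2
  · exact absurd h2 one_ne_zero

/-- **the root element in the centre of `U`** -/
theorem exists_root [FiniteDimensional K V] (h : QB Q B) (hdim : 5 ≤ finrank K V) {U : Type*} [Group U] [Finite U]
    (hU : IsPGroup 2 U) [Nontrivial U] (ρ : U →* Module.End K V) (hinj : Function.Injective ρ)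
    (hQ : ∀ g x, Q (ρ g x) = Q x) (L : Submodule K (Module.End K V)) (hL : ∀ e f, B e f = 0 → wd B e f ∈ L)
    (X₀ : Module.End K V)
    (hline : ∀ X ∈ L, (∀ g, ρ g * X * ρ g⁻¹ = X) → ∃ c s : K, X = c • X₀ + s • (1 : Module.End K V)) :
    ∃ z ∈ Subgroup.center U, z ≠ 1 ∧ ∃ v₀ v₁ : V, Q v₀ = 0 ∧ Q v₁ = 0 ∧ B v₀ v₁ = 0 ∧ wd B v₀ v₁ ≠ 0 ∧
      ρ z = 1 + wd B v₀ v₁ ∧ ∃ c s : K, c ≠ 0 ∧ wd B v₀ v₁ = c • X₀ + s • (1 : Module.End K V) := by
  have : Fact (Nat.Prime 2) := ⟨Nat.prime_two⟩
  have hnt : Nontrivial V := Module.nontrivial_of_finrank_pos (R := K) (by omega)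
  have hB : ∀ g x y, B (ρ g x) (ρ g y) = B x y := fun g x y => by
    have h1 := h.add (ρ g x) (ρ g y)
    rw [← map_add, hQ, hQ, hQ, h.add x y] at h1
    exact (add_left_cancel h1).symm
  have hgg : ∀ g x, ρ g (ρ g⁻¹ x) = x := fun g x => by
    rw [← Module.End.mul_apply, ← map_mul, mul_inv_cancel, map_one, Module.End.one_apply]
  have hconj : ∀ g u v, ρ g * wd B u v * ρ g⁻¹ = wd B (ρ g u) (ρ g v) := fun g u v => wd_conj (hB g) (hgg g) u v
  -- `v₀`
  obtain ⟨v₀, -, hv0, hQ0, hf0⟩ := exists_sing h hU ρ hQ hB ⊥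
    (fun g t ht => by rw [(Submodule.mem_bot K).1 ht, map_zero]; exact zero_mem _)
    (fun t ht => by rw [(Submodule.mem_bot K).1 ht]; exact h.zero) (by rw [finrank_bot]; omega)
  have hv0 : v₀ ≠ 0 := fun hc => hv0 (by rw [hc]; exact zero_mem _)
  have hf0 : ∀ g, ρ g v₀ = v₀ := fun g => sub_eq_zero.1 ((Submodule.mem_bot K).1 (hf0 g))
  -- `v₁`
  obtain ⟨v₁, ho, hv1, hQ1, hf1⟩ := exists_sing h hU ρ hQ hB (K ∙ v₀)
    (fun g t ht => by
      obtain ⟨c, rfl⟩ := Submodule.mem_span_singleton.1 ht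
      rw [map_smul, hf0]
      exact ht)
    (fun t ht => by
      obtain ⟨c, rfl⟩ := Submodule.mem_span_singleton.1 ht
      rw [h.smul, hQ0, mul_zero])
    (by
      have h1 := finrank_span_le_card (R := K) ({v₀} : Set V)
      rw [Set.toFinset_singleton, Finset.card_singleton] at h1
      omega)
  have h01 : B v₀ v₁ = 0 := ho v₀ (Submodule.mem_span_singleton_self v₀)
  have hf1 : ∀ g, ∃ c : K, ρ g v₁ = v₁ + c • v₀ := fun g => by
    obtain ⟨c, hc⟩ := Submodule.mem_span_singleton.1 (hf1 g)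
    exact ⟨c, by rw [hc]; abel⟩
  have ha0 : wd B v₀ v₁ ≠ 0 := fun hc => by
    obtain ⟨c, hc⟩ := eq_smul_of_wd h hv0 hc
    exact hv1 (by rw [hc]; exact Submodule.smul_mem _ _ (Submodule.mem_span_singleton_self v₀))
  have hsq0 := wd_sq h h01
  have hfa : ∀ g, ρ g * wd B v₀ v₁ * ρ g⁻¹ = wd B v₀ v₁ := fun g => by
    obtain ⟨c, hc⟩ := hf1 g
    rw [hconj, hf0, hc, wd_add_right, wd_smul_right, wd_self, smul_zero, add_zero]
  obtain ⟨c₁, s₁, hc1⟩ := hline _ (hL _ _ h01) hfa
  have hc10 : c₁ ≠ 0 := by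
    intro hc
    rw [hc, zero_smul, zero_add] at hc1
    have h1 : ((0 : K) • (0 : Module.End K V) + s₁ • (1 : Module.End K V)) *
        ((0 : K) • (0 : Module.End K V) + s₁ • (1 : Module.End K V)) = 0 := by
      rw [zero_smul, zero_add, ← hc1]
      exact hsq0
    have h2 := eq_zero_of_nil (mul_zero _) h1
    rw [h2, zero_smul] at hc1
    exact ha0 hc1
  -- fixed elements of square 0 are multiples of `a₀`
  have hmul : ∀ X ∈ L, (∀ g, ρ g * X * ρ g⁻¹ = X) → X * X = 0 → ∃ c : K, X = c • wd B v₀ v₁ := by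
    intro X hX hf hX2
    obtain ⟨c, s, hcs⟩ := hline X hX hf
    have h1 : X = (c * c₁⁻¹) • wd B v₀ v₁ + (s - c * c₁⁻¹ * s₁) • (1 : Module.End K V) := by
      rw [hcs, hc1, smul_add, smul_smul, smul_smul, sub_smul, mul_assoc, inv_mul_cancel₀ hc10, mul_one]
      abel
    rw [h1] at hX2
    have h2 := eq_zero_of_nil hsq0 hX2
    rw [h2, zero_smul, add_zero] at h1
    exact ⟨_, h1⟩
  -- fixed vectors are orthogonal to `v₀`
  have hfixo : ∀ x, (∀ g, ρ g x = x) → B x v₀ = 0 := by
    intro x hx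
    by_contra hx0
    -- singular
    have hx' : ∃ x', (∀ g, ρ g x' = x') ∧ Q x' = 0 ∧ B x' v₀ ≠ 0 := by
      refine ⟨x + (Q x / B x v₀) • v₀, fun g => by rw [map_add, map_smul, hx, hf0], ?_, ?_⟩
      · rw [h.add, h.smul, hQ0, mul_zero, add_zero, map_smul, smul_eq_mul, div_mul_cancel₀ _ hx0,
          CharTwo.add_self_eq_zero]
      · rw [map_add, LinearMap.add_apply, map_smul, LinearMap.smul_apply, h.alt, smul_zero, add_zero]
        exact hx0
    obtain ⟨y, hfy, hQy, hy0⟩ := hx'
    -- `v₁' = v₁ + e v₀` orthogonal to `y`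
    have hy1 : B y (v₁ + (B y v₁ / B y v₀) • v₀) = 0 := by
      rw [map_add, map_smul, smul_eq_mul, div_mul_cancel₀ _ hy0, CharTwo.add_self_eq_zero]
    set v := v₁ + (B y v₁ / B y v₀) • v₀ with hv
    have hvf : ∀ g, ρ g v = v := by
      intro g
      obtain ⟨c, hc⟩ := hf1 g
      have h1 : ρ g v = v + c • v₀ := by
        rw [hv, map_add, map_smul, hf0, hc]
        abel
      have h2 := hB g y v
      rw [hfy, h1, map_add, map_smul, hy1, zero_add, smul_eq_mul] at h2
      rcases mul_eq_zero.1 h2 with h3 | h3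
      · rw [h1, h3, zero_smul, add_zero]
      · exact absurd h3 hy0
    have hv00 : B v v₀ = 0 := by
      rw [hv, map_add, LinearMap.add_apply, map_smul, LinearMap.smul_apply, h.alt, h.symm, h01, smul_zero, add_zero]
    have hva : wd B v₀ v = wd B v₀ v₁ := by
      rw [hv, wd_add_right, wd_smul_right, wd_self, smul_zero, add_zero]
    obtain ⟨c, hc⟩ := hmul (wd B y v) (hL _ _ hy1) (fun g => by rw [hconj, hfy, hvf]) (wd_sq h hy1)
    have h3 : v = 0 := by
      refine h.nd v fun w => ?_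
      have h4 := LinearMap.congr_fun hc w
      rw [← hva, LinearMap.smul_apply, wd_apply, wd_apply] at h4
      have h5 := congrArg (fun t => B t v₀) h4
      simp only [map_add, map_smul, LinearMap.add_apply, LinearMap.smul_apply, smul_eq_mul, hv00, h.alt, mul_zero,
        add_zero] at h5
      rcases mul_eq_zero.1 h5 with h6 | h6
      · exact h6
      · exact absurd h6 hy0
    refine hv1 ?_
    have h4 : v₁ = v - (B y v₁ / B y v₀) • v₀ := by
      rw [hv]
      abel
    rw [h4, h3, zero_sub]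
    exact neg_mem (Submodule.smul_mem _ _ (Submodule.mem_span_singleton_self v₀))
  -- fixed vectors lie in `⟨v₀, v₁⟩`
  have hfix : ∀ x, (∀ g, ρ g x = x) → ∃ c d : K, x = c • v₀ + d • v₁ := by
    intro x hx
    have hx0 : B v₀ x = 0 := by rw [h.symm]; exact hfixo x hx
    obtain ⟨d, hd⟩ := hmul (wd B v₀ x) (hL _ _ hx0) (fun g => by rw [hconj, hf0, hx]) (wd_sq h hx0)
    have h1 : wd B v₀ (x - d • v₁) = 0 := by
      have h2 : wd B v₀ (x - d • v₁) = wd B v₀ x + (-d) • wd B v₀ v₁ := by
        rw [sub_eq_add_neg, ← neg_smul, wd_add_right, wd_smul_right]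
      rw [h2, hd, ← add_smul, add_neg_cancel, zero_smul]
    obtain ⟨c, hc⟩ := eq_smul_of_wd h hv0 h1
    exact ⟨c, d, by rw [← hc]; abel⟩
  -- an involution in the centre
  obtain ⟨z, hzc, hz1, hz2⟩ : ∃ z ∈ Subgroup.center U, z ≠ 1 ∧ z * z = 1 := by
    have hc := hU.center_nontrivial
    have h1 : 2 ∣ Nat.card (Subgroup.center U) := by
      obtain ⟨k, hk⟩ := (IsPGroup.iff_card (p := 2)).1 (hU.to_subgroup (Subgroup.center U))
      rw [hk]
      refine dvd_pow_self 2 fun hk0 => ?_
      rw [hk0, pow_zero] at hk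
      exact absurd hk (Finite.one_lt_card (α := Subgroup.center U)).ne'
    obtain ⟨z, hz⟩ := exists_prime_orderOf_dvd_card' 2 h1
    refine ⟨z, z.2, fun h2 => ?_, ?_⟩
    · have h3 : z = 1 := Subtype.ext h2
      rw [h3, orderOf_one] at hz
      omega
    · have h3 := pow_orderOf_eq_one z
      rw [hz, pow_two] at h3
      exact congrArg Subtype.val h3
  -- `X = z - 1`
  set X : Module.End K V := ρ z - 1 with hX
  have hzX : ρ z = 1 + X := by
    rw [hX]
    abel
  have hXv : ∀ x, ρ z x = x + X x := fun x => by rw [hzX]; rfl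
  have h2X : ∀ x : V, x + x = 0 := fun x => by
    rw [← two_smul K, CharTwo.two_eq_zero, zero_smul]
  have hXX : ∀ x, X (X x) = 0 := fun x => by
    have h1 : ρ z (ρ z x) = x := by rw [← Module.End.mul_apply, ← map_mul, hz2, map_one, Module.End.one_apply]
    rw [hXv, hXv, map_add] at h1
    have h3 : X (X x) = (x + X x + (X x + X (X x))) - x - (X x + X x) := by abel
    rw [h3, h1, h2X, sub_self, sub_zero]
  have hsym : ∀ x y, B (X x) y = B x (X y) := fun x y => by
    have h1 : B (ρ z x) y = B x (ρ z y) := by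
      have h3 := hB z x (ρ z y)
      rw [← Module.End.mul_apply (ρ z) (ρ z) y, ← map_mul, hz2, map_one, Module.End.one_apply] at h3
      exact h3
    rw [hXv, hXv, map_add, map_add, LinearMap.add_apply] at h1
    exact add_left_cancel h1
  have hQX : ∀ x, Q (X x) = B x (X x) := fun x => by
    have h1 := hQ z x
    rw [hXv, h.add, add_assoc] at h1
    have h3 : Q (X x) + B x (X x) = 0 := by
      have h4 : Q x + (Q (X x) + B x (X x)) = Q x + 0 := by rw [h1, add_zero]
      exact add_left_cancel h4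
    exact CharTwo.add_eq_zero.1 h3
  have hXf : ∀ g x, X (ρ g x) = ρ g (X x) := fun g x => by
    have h1 : ρ z (ρ g x) = ρ g (ρ z x) := by
      rw [← Module.End.mul_apply, ← Module.End.mul_apply, ← map_mul, ← map_mul,
        (Subgroup.mem_center_iff.1 hzc g)]
    rw [hXv, hXv, map_add] at h1
    exact add_left_cancel h1
  obtain ⟨x₀, hx₀⟩ := exists_vec h hsym
  have hself : ∀ a b : K, a * a = b * b → a = b := fun a b hab => by
    have h1 : (a + b) * (a + b) = 0 := by
      have h3 := CharTwo.add_self_eq_zero (a * b)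
      have h4 := CharTwo.add_self_eq_zero (a * a)
      linear_combination h4 + h3 - hab
    exact CharTwo.add_eq_zero.1 (mul_self_eq_zero.1 h1)
  -- `x₀` is fixed
  have hx₀f : ∀ g, ρ g x₀ = x₀ := by
    intro g
    refine sub_eq_zero.1 (h.nd _ fun v => ?_)
    rw [map_sub, LinearMap.sub_apply, sub_eq_zero]
    have h1 : B (ρ g x₀) v = B x₀ (ρ g⁻¹ v) := by
      conv_lhs => rw [← hgg g v]
      rw [hB]
    rw [h1]
    refine hself _ _ ?_
    rw [← hx₀, ← hx₀, hXf, hB]
  obtain ⟨α, γ, hαγ⟩ := hfix x₀ hx₀f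
  have hXx₀ : X x₀ = 0 := by
    refine h.nd _ fun w => ?_
    rw [hsym]
    have h1 := hx₀ (X w)
    rw [hXX, map_zero, LinearMap.zero_apply] at h1
    exact mul_self_eq_zero.1 h1.symm
  have hBX : ∀ x, B x₀ (X x) = 0 := fun x => by rw [← hsym, hXx₀, map_zero, LinearMap.zero_apply]
  -- `Y = X - x₀²`
  have hY : ∀ x, (X - sq B x₀) x = X x - B x₀ x • x₀ := fun x => rfl
  have hYs : ∀ x y, B ((X - sq B x₀) x) y = B x ((X - sq B x₀) y) := by
    intro x y
    rw [hY, hY]
    simp only [map_sub, map_smul, LinearMap.sub_apply, LinearMap.smul_apply, smul_eq_mul]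
    rw [hsym, h.symm x x₀]
    ring
  have hYa : ∀ x, B ((X - sq B x₀) x) x = 0 := by
    intro x
    rw [hY]
    simp only [map_sub, map_smul, LinearMap.sub_apply, LinearMap.smul_apply, smul_eq_mul]
    rw [hx₀, sub_self]
  have hYY : (X - sq B x₀) * (X - sq B x₀) = 0 := by
    refine LinearMap.ext fun x => ?_
    rw [Module.End.mul_apply, hY, hY, map_sub, map_smul, hXX, hXx₀, map_sub, hBX, map_smul, h.alt]
    simp only [smul_zero, sub_zero, zero_smul, LinearMap.zero_apply]
  have hYL : X - sq B x₀ ∈ L := mem_of_sq h L hL _ _ hYs hYa hYY le_rfl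
  have hYf : ∀ g, ρ g * (X - sq B x₀) * ρ g⁻¹ = X - sq B x₀ := by
    intro g
    refine LinearMap.ext fun x => ?_
    rw [Module.End.mul_apply, Module.End.mul_apply, hY, hY, map_sub, map_smul, hXf, hgg, hx₀f]
    have h1 : B x₀ (ρ g⁻¹ x) = B x₀ x := by
      conv_rhs => rw [← hx₀f g, ← hgg g x]
      rw [hB]
    rw [h1]
  obtain ⟨β, hβ⟩ := hmul _ hYL hYf hYY
  have hXe : ∀ x, X x = B x₀ x • x₀ + β • (B v₁ x • v₀ + B v₀ x • v₁) := fun x => by
    have h1 := LinearMap.congr_fun hβ x
    rw [hY, LinearMap.smul_apply, wd_apply] at h1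
    rw [← h1]
    abel
  have hQs : ∀ c d : K, Q (c • v₀ + d • v₁) = 0 := fun c d => by
    rw [h.add, h.smul, h.smul, hQ0, hQ1]
    simp only [map_smul, LinearMap.smul_apply, h01, mul_zero, smul_zero, add_zero]
  have hx₀0 : x₀ = 0 := by
    refine h.nd _ fun x => ?_
    have h1 : Q (X x) = 0 := by
      have h3 : X x = (B x₀ x * α + β * B v₁ x) • v₀ + (B x₀ x * γ + β * B v₀ x) • v₁ := by
        have h4 := hXe x
        generalize B x₀ x = s at h4 ⊢
        rw [h4, hαγ]
        simp only [smul_add, smul_smul, add_smul]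
        abel
      rw [h3]
      exact hQs _ _
    rw [hQX, ← hsym, hx₀] at h1
    exact mul_self_eq_zero.1 h1
  have hXw : X = wd B (β • v₀) v₁ := by
    rw [wd_smul_left]
    refine LinearMap.ext fun x => ?_
    rw [hXe, hx₀0, map_zero, LinearMap.zero_apply, zero_smul, zero_add, LinearMap.smul_apply, wd_apply]
  have hX0 : X ≠ 0 := fun hc => hz1 (hinj (by rw [hzX, hc, add_zero, map_one]))
  have hβ0 : β ≠ 0 := fun hc => hX0 (by rw [hXw, wd_smul_left, hc, zero_smul])
  refine ⟨z, hzc, hz1, β • v₀, v₁, ?_, hQ1, ?_, ?_, ?_, β * c₁, β * s₁, mul_ne_zero hβ0 hc10, ?_⟩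
  · rw [h.smul, hQ0, mul_zero]
  · rw [map_smul, LinearMap.smul_apply, h01, smul_zero]
  · rw [← hXw]
    exact hX0
  · rw [← hXw]
    exact hzX
  · rw [wd_smul_left, mul_smul, mul_smul, ← smul_add, ← hc1]

end sing

/-! ### the field `ext` -/

section ext

variable {K : Type u} [Field K] [CharP K 2] [PerfectRing K 2] {V W : Type u} [AddCommGroup V] [Module K V]
  [AddCommGroup W] [Module K W] {Q : V → K} {B : LinearMap.BilinForm K V}

/-- **the field `ext` of `Fam`** for `W = L / (L ∩ scalars)`, `L ≤ End V` containing all `e ∧ f`, `e ⊥ f`. -/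
theorem ext_even [FiniteDimensional K V] (h : QB Q B) (hdim : 5 ≤ finrank K V) {G : Type w} [Group G] [Finite G]
    (ρ : G →* Module.End K V) (hinj : Function.Injective ρ) (hQ : ∀ g x, Q (ρ g x) = Q x)
    (L : Submodule K (Module.End K V)) (hL : ∀ e f, B e f = 0 → wd B e f ∈ L)
    (hLG : ∀ g, ∀ X ∈ L, ad ρ g X ∈ L) (σ : G →* Module.End K W) (π : L →ₗ[K] W)
    (hπs : Function.Surjective π) (hπk : ∀ X : L, π X = 0 ↔ ∃ s : K, (X : Module.End K V) = s • 1)
    (hσ : ∀ g (X : L), σ g (π X) = π ⟨ad ρ g X, hLG g X X.2⟩) {d : ℕ}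
    (hS : ∀ S : Submodule K (Module.End K V), Inv (ad ρ) ⊤ S →
      (∃ X ∈ S, X ∈ L ∧ ∀ s : K, X ≠ s • (1 : Module.End K V)) → d ≤ finrank K S) :
    ∀ M U : Subgroup G, U ≤ M → IsPGroup 2 U → U ≠ ⊥ → ∀ w : W, w ≠ 0 →
    (∀ v : W, (∀ u ∈ U, σ u v = v) ↔ ∃ c : K, v = c • w) →
    ∃ z ∈ U, ∃ a : Module.End K V, a ≠ 0 ∧ a * a = 0 ∧ ρ z = 1 + a ∧
      (∀ b ∈ M, (∀ u ∈ U, b * u * b⁻¹ ∈ U) → ∀ c : K, σ b w = c • w → ad ρ b a = c • a) ∧
      ∀ S : Submodule K (Module.End K V), Inv (ad ρ) ⊤ S → a ∈ S → d ≤ Module.finrank K S := by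
  intro M U hUM hU hU1 w hw0 hw
  have hnt : Nontrivial V := Module.nontrivial_of_finrank_pos (R := K) (by omega)
  have hUn : Nontrivial U := (Subgroup.nontrivial_iff_ne_bot U).2 hU1
  obtain ⟨X₀, hX₀⟩ := hπs w
  -- the fixed line in terms of endomorphisms
  have hline : ∀ X ∈ L, (∀ g : U, (ρ.comp U.subtype) g * X * (ρ.comp U.subtype) g⁻¹ = X) →
      ∃ c s : K, X = c • (X₀ : Module.End K V) + s • (1 : Module.End K V) := by
    intro X hX hf
    have h1 : ∀ u ∈ U, σ u (π ⟨X, hX⟩) = π ⟨X, hX⟩ := fun u hu => by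
      rw [hσ]
      congr 1
      exact Subtype.ext (hf ⟨u, hu⟩)
    obtain ⟨c, hc⟩ := (hw _).1 h1
    have h2 : π (⟨X, hX⟩ - c • X₀) = 0 := by rw [map_sub, map_smul, hc, hX₀, sub_self]
    obtain ⟨s, hs⟩ := (hπk _).1 h2
    refine ⟨c, s, ?_⟩
    rw [← hs]
    change X = c • (X₀ : Module.End K V) + (X - c • (X₀ : Module.End K V))
    abel
  obtain ⟨z, -, -, v₀, v₁, hQ0, hQ1, h01, ha0, hz, c₁, s₁, hc1, hc⟩ := exists_root h hdim hU (ρ.comp U.subtype)
    (hinj.comp Subtype.val_injective) (fun g x => hQ g x) L hL X₀ hline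
  have hsq := wd_sq h h01
  refine ⟨z, z.2, wd B v₀ v₁, ha0, hsq, hz, fun b hb hbU c hbc => ?_, fun S hSi haS => hS S hSi
    ⟨_, haS, hL _ _ h01, fun s hs => ?_⟩⟩
  · -- `b a b⁻¹ = c a + scalar`, and its square is zero
    have h1 : π ⟨ad ρ b X₀, hLG b X₀ X₀.2⟩ = c • π X₀ := by
      rw [← hσ, hX₀, hbc]
    have h2 : π (⟨ad ρ b X₀, hLG b X₀ X₀.2⟩ - c • X₀) = 0 := by rw [map_sub, map_smul, h1, sub_self]
    obtain ⟨s, hs⟩ := (hπk _).1 h2
    have h3 : ad ρ b (X₀ : Module.End K V) = c • (X₀ : Module.End K V) + s • (1 : Module.End K V) := by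
      rw [← hs]
      change _ = c • (X₀ : Module.End K V) + (ad ρ b X₀ - c • (X₀ : Module.End K V))
      abel
    have h4 : ad ρ b (1 : Module.End K V) = 1 := by
      rw [ad_apply, mul_one, ← map_mul, mul_inv_cancel, map_one]
    have h5 : ad ρ b (wd B v₀ v₁) = c • wd B v₀ v₁ + (c₁ * s + s₁ - c * s₁) • (1 : Module.End K V) := by
      conv_lhs => rw [hc, map_add, map_smul, map_smul, h3, h4]
      rw [hc]
      simp only [smul_add, smul_smul, sub_smul, add_smul, mul_comm c c₁]
      abel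
    have h6 : ad ρ b (wd B v₀ v₁) * ad ρ b (wd B v₀ v₁) = 0 := by
      have h7 : ρ b⁻¹ * ρ b = 1 := by rw [← map_mul, inv_mul_cancel, map_one]
      rw [ad_apply]
      calc ρ b * wd B v₀ v₁ * ρ b⁻¹ * (ρ b * wd B v₀ v₁ * ρ b⁻¹) =
          ρ b * wd B v₀ v₁ * (ρ b⁻¹ * ρ b) * (wd B v₀ v₁ * ρ b⁻¹) := by simp only [mul_assoc]
        _ = ρ b * (wd B v₀ v₁ * wd B v₀ v₁) * ρ b⁻¹ := by rw [h7, mul_one]; simp only [mul_assoc]
        _ = 0 := by rw [hsq, mul_zero, zero_mul]
    rw [h5] at h6
    rw [h5, eq_zero_of_nil hsq h6, zero_smul, add_zero]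
  · have h1 : ((0 : K) • (0 : Module.End K V) + s • (1 : Module.End K V)) *
        ((0 : K) • (0 : Module.End K V) + s • (1 : Module.End K V)) = 0 := by
      rw [zero_smul, zero_add, ← hs]
      exact hsq
    rw [eq_zero_of_nil (mul_zero _) h1, zero_smul] at hs
    exact ha0 hs

end ext

end Cfsg.Agent.H580.BR
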